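import Cfsg.Agent.H34.PCover
import Cfsg.Agent.H34.Col

/-!
Sets of characters `U` such that `∑ χ(1) χ` vanishes on `p`-singular elements (Harada's conjecture
for `p`-solvable groups, Kiyota–Okuyama).
-/

set_option autoImplicit false
set_option linter.unusedSectionVars false

open scoped ComplexConjugate

namespace Cfsg.Agent.H34

open Cfsg Cfsg.Agent.H32 Cfsg.Agent.H86 H89

variable {G : Type*} [Group G] [Finite G] {M : Ideal AlgInt} {p : ℕ}

/-- `p`-regular elements in the same coset of a normal `p`-subgroup `V` are conjugate under `V`. -/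
theorem exists_conj_eq_of_regular [hp : Fact p.Prime] (V : Subgroup G) [hV : V.Normal]
    (hVp : IsPGroup p V) {g v : G} (hv : v ∈ V) (hg : ¬ p ∣ orderOf g)
    (hgv : ¬ p ∣ orderOf (g * v)) : ∃ w ∈ V, w * g * w⁻¹ = g * v := by
  let C := (Cg g).subgroupOf V
  have hpp : ∀ (w : G) (c : C), IsPPart p (w * (g * c) * w⁻¹) (w * c * w⁻¹) := fun w c => by
    have hc : Commute ((c : V) : G) g := Subgroup.mem_centralizer_singleton_iff.mp c.2
    refine H33.IsPPart.conj hp.out ?_ w
    rw [← hc.eq]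
    exact H33.isPPart_mul hc (pElt_of_le hVp (c : V).2) hg
  let f : (V ⧸ C) × C → V := fun x =>
    ⟨g⁻¹ * (x.1.out * (g * x.2) * (x.1.out : G)⁻¹), by
      have := V.mul_mem (V.mul_mem (hV.conj_mem _ x.1.out.2 g⁻¹) (x.2 : V).2) (V.inv_mem x.1.out.2)
      simpa [mul_assoc] using this⟩
  have hf : Function.Injective f := by
    rintro ⟨a, c⟩ ⟨b, d⟩ h
    have h1 : (a.out : G) * (g * c) * (a.out : G)⁻¹ = b.out * (g * d) * (b.out : G)⁻¹ :=
      mul_left_cancel (congrArg Subtype.val h)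
    have h2 := H33.IsPPart.unique hp.out (hpp a.out c) (h1 ▸ hpp b.out d)
    have h3 : (a.out : G) * g * (a.out : G)⁻¹ = b.out * g * (b.out : G)⁻¹ := by
      apply mul_right_cancel (b := (a.out : G) * c * (a.out : G)⁻¹)
      conv_rhs => rw [h2]
      simpa [mul_assoc] using h1
    have h4 : a = b := by
      rw [← a.out_eq, ← b.out_eq]
      refine QuotientGroup.eq.mpr (Subgroup.mem_centralizer_singleton_iff.mpr ?_)
      calc ((a.out : G)⁻¹ * b.out) * g = (a.out : G)⁻¹ * (b.out * g * (b.out : G)⁻¹) * b.out := by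
            group
        _ = g * ((a.out : G)⁻¹ * b.out) := by rw [← h3]; group
    subst h4
    exact Prod.ext rfl (Subtype.ext (Subtype.ext (by simpa using h2)))
  obtain ⟨⟨a, c⟩, h⟩ := (hf.bijective_of_nat_card_le
    (by rw [Nat.card_prod, ← Subgroup.card_eq_card_quotient_mul_card_subgroup])).2 ⟨v, hv⟩
  have h1 : (a.out : G) * (g * c) * (a.out : G)⁻¹ = g * v :=
    inv_mul_eq_iff_eq_mul.mp (congrArg Subtype.val h)
  have h2 := (H33.IsPPart.eq_one_iff hp.out (hpp a.out c)).mpr (h1 ▸ hgv)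
  refine ⟨a.out, a.out.2, ?_⟩
  rw [← h1, show ((c : V) : G) = 1 by simpa using h2, mul_one]

/-- `∑_{χ ∈ U} χ(1) χ`. -/
noncomputable def regPart (U : Finset (IrrCharacter G)) (g : G) : ℂ :=
  ∑ χ ∈ U, (χ : G → ℂ) 1 * (χ : G → ℂ) g

theorem regPart_isClassFunction (U : Finset (IrrCharacter G)) : IsClassFunction G (regPart U) :=
  fun g h => Finset.sum_congr rfl fun χ _ => by rw [irr_isClassFunction χ g h]

theorem classInner_regPart [Fintype G] [DecidableEq (IrrCharacter G)] (U : Finset (IrrCharacter G))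
    (χ : IrrCharacter G) : classInner (regPart U) χ = if χ ∈ U then (χ : G → ℂ) 1 else 0 := by
  have : regPart U = ∑ ψ ∈ U, (ψ : G → ℂ) 1 • (ψ : G → ℂ) := by
    funext g; simp [regPart]
  rw [this, H5.classInner_sum_left]
  simp [H5.classInner_smul_left, H5.classInner_irrCharacter]

theorem sum_conj_regPart_mul [Fintype G] (U : Finset (IrrCharacter G)) (v : G) :
    ∑ g, conj (regPart U g) * regPart U (g * v) = Nat.card G * regPart U v := by
  classical
  have hc : IsClassFunction G fun g => conj (regPart U g) := fun g h =>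
    congrArg conj (regPart_isClassFunction U g h)
  simp only [regPart, Finset.mul_sum (s := U)]
  rw [Finset.sum_comm]
  refine Finset.sum_congr rfl fun χ hχ => ?_
  have h1 := H5.sum_mul_irr_mul χ.2 hc v
  have h2 := congrArg conj (classInner_regPart U χ)
  rw [if_pos hχ, conj_irr_one, classInner, map_mul, map_inv₀, map_natCast, map_sum,
    inv_mul_eq_iff_eq_mul₀ H5.natCard_ne_zero] at h2
  simp only [map_mul, Complex.conj_conj] at h2
  rw [h2, mul_div_assoc, div_self (H5.degree_ne_zero χ.2), mul_one] at h1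
  simp only [mul_left_comm _ ((χ : G → ℂ) 1), ← Finset.mul_sum]
  exact congrArg _ h1

theorem commute_of_regPart_ne_zero [hp : Fact p.Prime] {U : Finset (IrrCharacter G)}
    (hU : ∀ g, p ∣ orderOf g → regPart U g = 0) (V : Subgroup G) [hV : V.Normal]
    (hVp : IsPGroup p V) {g : G} (hg : regPart U g ≠ 0) {w : G} (hw : w ∈ V) : w * g = g * w := by
  have := Fintype.ofFinite G
  by_contra hne
  have hv : g⁻¹ * (w * g * w⁻¹) ∈ V := by
    simpa [mul_assoc] using V.mul_mem (hV.conj_mem _ hw g⁻¹) (V.inv_mem hw)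
  set v := g⁻¹ * (w * g * w⁻¹) with hv'
  have hv1 : p ∣ orderOf v := by
    by_contra h
    have := H33.eq_one_of_pElt_of_regular (pElt_of_le hVp hv) h
    exact hne (mul_inv_eq_iff_eq_mul.mp (inv_mul_eq_one.mp this).symm)
  have h1 := sum_conj_regPart_mul U v
  rw [hU v hv1, mul_zero] at h1
  have h2 : ∀ x, conj (regPart U x) * regPart U (x * v) =
      ((if regPart U (x * v) = 0 then 0 else Complex.normSq (regPart U x) : ℝ) : ℂ) := fun x => by
    split_ifs with h
    · rw [h, mul_zero, Complex.ofReal_zero]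
    by_cases hx : regPart U x = 0
    · simp [hx]
    obtain ⟨u, -, hu⟩ := exists_conj_eq_of_regular V hVp hv (fun e => hx (hU _ e))
      fun e => h (hU _ e)
    rw [← hu, regPart_isClassFunction, Complex.normSq_eq_conj_mul_self]
  simp only [h2] at h1
  have h3 := (Finset.sum_eq_zero_iff_of_nonneg (f := fun x =>
      if regPart U (x * v) = 0 then 0 else Complex.normSq (regPart U x)) fun x _ => by
    split_ifs
    · exact le_rfl
    · exact Complex.normSq_nonneg _).mp (by exact_mod_cast h1) g (Finset.mem_univ g)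
  rw [hv', mul_inv_cancel_left, regPart_isClassFunction, if_neg hg] at h3
  exact hg (Complex.normSq_eq_zero.mp h3)

theorem regPart_eq_zero_of_invariant [hp : Fact p.Prime] (N : Subgroup G) [hN : N.Normal]
    [Fintype N] (hNp : ¬ p ∣ Nat.card N) (hQ : H22.IsCharP p (G ⧸ N)) {ϑ : N → ℂ}
    (hϑ : IsIrrCharacter N ϑ)
    (hinv : ∀ (g : G) (n : N), ϑ ⟨g * n * g⁻¹, hN.conj_mem (n : G) n.2 g⟩ = ϑ n)
    {U : Finset (IrrCharacter G)}
    (hover : ∀ χ ∈ U, classInner (fun n : N => (χ : G → ℂ) n) ϑ ≠ 0)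
    (hU : ∀ g, p ∣ orderOf g → regPart U g = 0) {g : G} (hg : g ∉ N) : regPart U g = 0 := by
  classical
  obtain ⟨Γ, _, _, C, hC⟩ := exists_pcover hp.out N hNp hϑ hinv
  have hk : ¬ p ∣ Nat.card (trρ C).ker := fun h => hC (h.trans (card_trρ_ker_dvd C))
  choose! β hβ using fun χ hχ => exists_TR C hϑ χ (hover χ hχ)
  have hT : TR C (regPart U) fun y => ϑ 1 * regPart (U.image β) y := fun γ => by
    beta_reduce
    rw [regPart, regPart, Finset.sum_image (g := β) fun χ hχ ψ hψ e =>
      Subtype.ext ((hβ χ hχ).left_unique (by rw [e]; exact hβ ψ hψ)), Finset.mul_sum, Finset.sum_mul]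
    exact Finset.sum_congr rfl fun χ hχ => by rw [hβ χ hχ γ, (hβ χ hχ).apply_one]; ring
  have hsing : ∀ y, p ∣ orderOf y → regPart (U.image β) y = 0 := fun y hy => by
    refine (mul_eq_zero.mp (hT.eq_zero hϑ fun g hg => hU g ?_)).resolve_left
      (H5.degree_ne_zero hϑ)
    refine dvd_trans ?_ (orderOf_map_dvd (QuotientGroup.mk' N) g)
    rw [QuotientGroup.mk'_apply, ← hg]
    by_contra h
    have h1 : y ^ orderOf (trρ C y) ∈ (trρ C).ker := by
      rw [MonoidHom.mem_ker, map_pow, pow_orderOf_eq_one]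
    have h2 : orderOf y ∣ orderOf (trρ C y) * Nat.card (trρ C).ker := by
      rw [orderOf_dvd_iff_pow_eq_one, pow_mul]
      exact congrArg Subtype.val (pow_card_eq_one' (x := (⟨_, h1⟩ : (trρ C).ker)))
    exact hp.out.not_dvd_mul h hk (hy.trans h2)
  obtain ⟨V, hV, hVL, hVc, hVs⟩ := H22.exists_normal_complement_of_central (trρ C).ker
    ((pCore p (G ⧸ N)).comap (trρ C)) (MonoidHom.ker_le_comap _ _)
    (fun y _ z hz => (Subgroup.mem_center_iff.mp (trρ_ker_le_center C hz) y).symm) (by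
      obtain ⟨k, hk'⟩ := (H22.isPGroup_pCore (p := p) (G := G ⧸ N)).exists_card_eq
      rw [Subgroup.relIndex_ker, Subgroup.map_comap_eq_self_of_surjective (trρ_surj C), hk']
      exact (((Nat.Prime.coprime_iff_not_dvd hp.out).mpr hk).symm).pow_right k)
  rw [Subgroup.relIndex_ker, Subgroup.map_comap_eq_self_of_surjective (trρ_surj C)] at hVc
  have hVp : IsPGroup p V := by
    obtain ⟨k, hk'⟩ := (H22.isPGroup_pCore (p := p) (G := G ⧸ N)).exists_card_eq
    exact IsPGroup.of_card (hVc.trans hk')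
  obtain ⟨γ, rfl⟩ := C.π_surj g
  rw [hT γ]
  by_contra hne
  have h1 : regPart (U.image β) (Tri.q C γ) ≠ 0 := fun e => hne (by simp [e])
  have h2 : trρ C (Tri.q C γ) ∈ pCore p (G ⧸ N) := hQ fun x hx => by
    obtain ⟨y, rfl⟩ := trρ_surj C x
    have hy : y ∈ (((trρ C).ker ⊔ V : Subgroup _) : Set _) := hVs ▸ hx
    rw [Subgroup.normal_mul] at hy
    obtain ⟨z, hz, w, hw, rfl⟩ := hy
    rw [map_mul, MonoidHom.mem_ker.mp hz, one_mul, ← map_mul, ← map_mul,
      commute_of_regPart_ne_zero hsing V hVp h1 hw]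
  have h3 := H33.eq_one_of_pElt_of_regular (pElt_of_le H22.isPGroup_pCore h2)
    fun e => h1 (hsing _ (e.trans (orderOf_map_dvd _ _)))
  exact hg ((QuotientGroup.eq_one_iff _).mp h3)

theorem mem_of_regPart_supported (N : Subgroup G) [hN : N.Normal] [Fintype N] {ϑ : N → ℂ}
    (hϑ : IsIrrCharacter N ϑ) (hinv : ∀ g : G, H6.conjChar N g ϑ = ϑ)
    {U : Finset (IrrCharacter G)} (hne : U.Nonempty)
    (hover : ∀ χ ∈ U, classInner (fun n : N => (χ : G → ℂ) n) ϑ ≠ 0)
    (hU : ∀ g, g ∉ N → regPart U g = 0) {ψ : IrrCharacter G}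
    (hψ : classInner (fun n : N => (ψ : G → ℂ) n) ϑ ≠ 0) : ψ ∈ U := by
  classical
  have := Fintype.ofFinite G
  by_contra h
  have h1 := classInner_regPart U ψ
  rw [if_neg h, classInner, mul_eq_zero, ← Finset.sum_filter_of_ne (p := (· ∈ N))
    (fun g _ hg => by_contra fun e => hg (by rw [hU g e, zero_mul])),
    Finset.sum_subtype (p := (· ∈ N)) _ (by simp)] at h1
  have key : ∀ χ : IrrCharacter G, classInner (fun n : N => (χ : G → ℂ) n) ϑ ≠ 0 →
      ∀ n : N, ϑ 1 * (χ : G → ℂ) n = (χ : G → ℂ) 1 * ϑ n := fun χ hχ n => by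
    have := H6.res_eq_smul_of_invariant N χ.2 hϑ hχ hinv
    have e2 : (χ : G → ℂ) 1 = _ := congrFun this 1
    rw [e2, congrFun this n]
    simp only [Pi.smul_apply, smul_eq_mul]
    ring
  have h2 : ∀ n : N, ϑ 1 * regPart U n = regPart U 1 * ϑ n := fun n => by
    rw [regPart, regPart, Finset.mul_sum, Finset.sum_mul]
    exact Finset.sum_congr rfl fun χ hχ => by
      rw [mul_left_comm, key χ (hover χ hχ), mul_assoc]
  have h3 : regPart U 1 ≠ 0 := by
    have : regPart U 1 = (∑ χ ∈ U, charDegree (χ : G → ℂ) * charDegree (χ : G → ℂ) : ℕ) := by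
      simp [regPart, irr_degree_cast]
    rw [this, Nat.cast_ne_zero]
    exact (Finset.sum_pos (fun χ _ => Nat.pos_of_ne_zero
      (mul_ne_zero (irr_degree_ne_zero χ) (irr_degree_ne_zero χ))) hne).ne'
  have h4 : ϑ 1 * ∑ n : N, regPart U n * conj ((ψ : G → ℂ) n) =
      regPart U 1 * ∑ n : N, ϑ n * conj ((ψ : G → ℂ) n) := by
    rw [Finset.mul_sum, Finset.mul_sum]
    exact Finset.sum_congr rfl fun n _ => by rw [← mul_assoc, h2, mul_assoc]
  rw [h1.resolve_left (inv_ne_zero H5.natCard_ne_zero), mul_zero] at h4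
  apply hψ
  rw [H5.classInner_comm_of_isCharacter (H5.isCharacter_restrict (irr_isCharacter ψ) N)
    (H5.isCharacter_of_isIrr hϑ), classInner, (mul_eq_zero.mp h4.symm).resolve_left h3, mul_zero]

variable [hMm : M.IsMaximal]

theorem regPart_inter_eq_zero (hM : IsPModular p M) {B : Set (IrrCharacter G)} (hB : IsPBlock M B)
    {F : G → ℂ} (hF : ∀ g, p ∣ orderOf g → F g = 0) {g : G} (hg : p ∣ orderOf g) :
    blockPart B F g = 0 := by
  obtain ⟨z, hz⟩ := H33.exists_isPPart hM.1 g
  refine H33.blockPart_eq_zero_of_section hM hB F hz fun x y hy hc => hF x ?_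
  by_contra h
  rw [(H33.IsPPart.eq_one_iff hM.1 hy).mpr h] at hc
  exact (H33.IsPPart.eq_one_iff hM.1 hz).mp (isConj_one_left.mp hc) hg

universe u

theorem harada_aux [hp : Fact p.Prime] (hM : IsPModular p M) (n : ℕ) :
    ∀ (G : Type u) [Group G] [Finite G], Nat.card G = n → IsPSolvable p G →
      ∀ U : Finset (IrrCharacter G), (∀ g, p ∣ orderOf g → regPart U g = 0) →
        ∀ B, IsPBlock M B → ∀ χ ∈ B, χ ∈ U → ∀ ψ ∈ B, ψ ∈ U := by
  induction n using Nat.strong_induction_on with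
  | _ n IH =>
  intro G _ _ hn hG U hU B hB χ hχ hχU ψ hψ
  classical
  have := Fintype.ofFinite G
  have := Fintype.ofFinite (pPrimeCore p G)
  have hN : ¬ p ∣ Nat.card (pPrimeCore p G) := H33.not_dvd_card_pPrimeCore hp.out
  let E := NEmb.ofNormal (pPrimeCore p G)
  obtain ⟨θ, hθ⟩ := exists_under E.ι χ
  have hb := isPBlock_singleton hM hN θ
  have hc : Covers E.ι B {θ} := ⟨χ, hχ, θ, rfl, hθ⟩
  have hT := NEmb.stab_stabOf (E := E) hb
  by_cases hTop : E.stabOf {θ} = ⊤
  · have hi : E.Inv {θ} := fun g => hT.inv g (hTop ▸ Subgroup.mem_top g)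
    have hinv : ∀ g : G, H6.conjChar (pPrimeCore p G) g θ = θ := fun g => funext fun n => by
      have := congrFun (congrArg Subtype.val (hi g θ rfl)) n
      rwa [NEmb.act_apply, NEmb.ofNormal_cj] at this
    have hover : ∀ φ ∈ B, classInner (fun n : pPrimeCore p G => (φ : G → ℂ) n) θ ≠ 0 := by
      intro φ hφ
      obtain ⟨_, rfl, h⟩ := hc.subset_overSet hM hB (IsPBlock.closed hb) hφ
      exact h
    have h1 : ∀ g, blockPart B (regPart U) g = regPart (U.filter (· ∈ B)) g := fun g => by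
      rw [blockPart_apply, regPart]
      simp only [classInner_regPart, ite_mul, zero_mul]
      rw [← Finset.sum_filter]
      congr 1
      ext φ
      simp [mem_fs, and_comm]
    refine (Finset.mem_filter.mp (mem_of_regPart_supported (U := U.filter (· ∈ B)) _ θ.2 hinv
      ⟨χ, Finset.mem_filter.mpr ⟨hχU, hχ⟩⟩ (fun φ hφ => hover φ (Finset.mem_filter.mp hφ).2)
      (fun g hg => ?_) (hover ψ hψ))).1
    exact regPart_eq_zero_of_invariant _ hN (H22.IsPSolvable.isCharP_quotient hG) θ.2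
      (fun g n => congrFun (hinv g) n) (fun φ hφ => hover φ (Finset.mem_filter.mp hφ).2)
      (fun g hg => by rw [← h1, regPart_inter_eq_zero hM hB hU hg]) hg
  set T := E.stabOf {θ}
  have := Fintype.ofFinite T
  obtain ⟨B', hc', hi⟩ := hT.exists_indBlk hM hb hB hc
  have hBe := hT.eq_indSet hM hb hc' hi
  have hsub := hc'.subset_overSet hM hi.1 (IsPBlock.closed hb)
  rw [hBe] at hχ hψ
  obtain ⟨α, hα, hα'⟩ := hχ
  obtain ⟨β, hβ, hβ'⟩ := hψ
  let U' := (fs B').filter fun ξ : IrrCharacter T => ∃ φ ∈ U, (φ : G → ℂ) = indFun T (ξ : T → ℂ)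
  have h1 : ∀ t, blockPart B' (fun t : T => regPart U t) t = T.index * regPart U' t := fun t => by
    rw [blockPart_apply, regPart, Finset.sum_filter, Finset.mul_sum]
    refine Finset.sum_congr rfl fun ξ hξ => ?_
    obtain ⟨φ, -, hφ⟩ := hT.exists_ind (hsub (mem_fs.mp hξ))
    rw [← H6.classInner_indFun_right T _ (regPart_isClassFunction U), hφ, classInner_regPart]
    have : (∃ φ' ∈ U, (φ' : G → ℂ) = φ) ↔ φ ∈ U :=
      ⟨fun ⟨φ', h, e⟩ => Subtype.ext e ▸ h, fun h => ⟨φ, h, rfl⟩⟩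
    simp only [this]
    split_ifs
    · rw [← hφ, H6.indFun_apply_one, mul_assoc]
    · simp
  have h2 := IH _ (by
    rw [← hn, ← T.card_mul_index]
    exact lt_mul_of_one_lt_right Nat.card_pos (Subgroup.one_lt_index_of_ne_top hTop)) T rfl
    (H22.IsPSolvable.subgroup hG T) U' (fun t ht => by
      have := regPart_inter_eq_zero hM hi.1 (F := fun t : T => regPart U t)
        (fun t ht => hU t (by rwa [Subgroup.orderOf_coe])) ht
      rw [h1] at this
      exact (mul_eq_zero.mp this).resolve_left (Nat.cast_ne_zero.mpr T.index_ne_zero_of_finite))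
    B' hi.1 α hα (Finset.mem_filter.mpr ⟨mem_fs.mpr hα, χ, hχU, hα'⟩) β hβ
  obtain ⟨φ, hφ, e⟩ := (Finset.mem_filter.mp h2).2
  rwa [show ψ = φ from Subtype.ext (hβ'.trans e.symm)]

end Cfsg.Agent.H34
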