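import Cfsg.Agent.H34.PCover
import Cfsg.Agent.H34.PSolvB
import Cfsg.Agent.H34.Col

/-!
Fong's bound for the heights of characters in blocks of `p`-solvable groups.
-/

set_option autoImplicit false
set_option linter.unusedSectionVars false

namespace Cfsg.Agent.H34

open Cfsg Cfsg.Agent.H32 Cfsg.Agent.H87 H89

variable {G Q : Type*} [Group G] [Group Q] {M : Ideal AlgInt} {p : ℕ}

theorem comm_of_central_coprime [Finite Q] (ρ : Q →* G) (hc : ρ.ker ≤ Subgroup.center Q) {q : ℕ}
    (hq : q.Coprime (Nat.card ρ.ker)) {a b : Q} (ha : ρ a ^ q = 1) (hab : ρ a * ρ b = ρ b * ρ a) :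
    a * b = b * a := by
  have h1 : b * a * b⁻¹ * a⁻¹ ∈ ρ.ker := by
    rw [MonoidHom.mem_ker, map_mul, map_mul, map_mul, ← hab]; simp
  have h2 : a ^ q ∈ ρ.ker := by rw [MonoidHom.mem_ker, map_pow, ha]
  set z := b * a * b⁻¹ * a⁻¹ with hz
  have h3 : (z * a) ^ q = a ^ q := by
    rw [hz, inv_mul_cancel_right, conj_pow, Subgroup.mem_center_iff.mp (hc h2) b,
      mul_inv_cancel_right]
  rw [(show Commute z a from (Subgroup.mem_center_iff.mp (hc h1) a).symm).mul_pow,
    mul_eq_right] at h3
  have h4 : z = 1 := by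
    rw [← orderOf_eq_one_iff]
    exact Nat.eq_one_of_dvd_coprimes hq (orderOf_dvd_of_pow_eq_one h3)
      (Subgroup.orderOf_dvd_natCard _ h1)
  rw [hz, mul_inv_eq_one, mul_inv_eq_iff_eq_mul] at h4
  exact h4.symm

theorem index_center_congr (e : G ≃* Q) :
    (Subgroup.center G).index = (Subgroup.center Q).index := by
  rw [← Subgroup.index_comap_of_surjective (f := (e : G →* Q)) _ e.surjective]
  congr 1
  ext x
  simp only [Subgroup.mem_comap, Subgroup.mem_center_iff, MonoidHom.coe_coe, e.surjective.forall,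
    ← map_mul, e.apply_eq_iff_eq]

/-- Degrees of characters over an invariant character of a normal `p'`-subgroup `N`, when `A/N` is
an abelian normal `p`-subgroup. -/
theorem factorization_degree_le_of_invariant [Finite G] (hp : p.Prime) (N : Subgroup G)
    [hN : N.Normal] [Fintype N] (hNp : ¬ p ∣ Nat.card N) {ϑ : N → ℂ} (hϑ : IsIrrCharacter N ϑ)
    (hinv : ∀ (g : G) (n : N), ϑ ⟨g * n * g⁻¹, hN.conj_mem (n : G) n.2 g⟩ = ϑ n)
    (A : Subgroup (G ⧸ N)) [A.Normal] (hA : IsPGroup p A) (hAc : ∀ a ∈ A, ∀ b ∈ A, a * b = b * a)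
    (χ : IrrCharacter G) (h : classInner (fun n : N => (χ : G → ℂ) n) ϑ ≠ 0) :
    (charDegree (χ : G → ℂ)).factorization p ≤ A.index.factorization p := by
  have : Fact p.Prime := ⟨hp⟩
  obtain ⟨Γ, _, _, C, hC⟩ := exists_pcover hp N hNp hϑ hinv
  have hk : ¬ p ∣ Nat.card (trρ C).ker := fun h => hC (h.trans (card_trρ_ker_dvd C))
  obtain ⟨β, hβ⟩ := exists_TR C hϑ χ h
  obtain ⟨k, hk'⟩ := hA.exists_card_eq
  have h1 := H6.degree_dvd_index_of_abelian_normal (A.comap (trρ C)) (fun a ha b hb =>
    comm_of_central_coprime _ (trρ_ker_le_center C) (q := p ^ k)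
      (((Nat.Prime.coprime_iff_not_dvd hp).mpr hk).pow_left k)
      (by rw [← hk']; exact congrArg Subtype.val (pow_card_eq_one' (x := (⟨_, ha⟩ : A))))
      (hAc _ ha _ hb)) β.2 (irr_degree_cast β).symm
  rw [Subgroup.index_comap_of_surjective _ (trρ_surj C)] at h1
  have h2 : charDegree (χ : G → ℂ) = charDegree (β : Tri.Q C → ℂ) * charDegree ϑ := by
    have := hβ.apply_one
    rw [← irr_degree_cast, ← irr_degree_cast, ← charDegree_cast (H5.isCharacter_of_isIrr hϑ)] at this
    exact_mod_cast this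
  have h3 : ¬ p ∣ charDegree ϑ := fun h =>
    hNp (h.trans (H5.degree_dvd_card hϑ (irr_degree_cast ⟨ϑ, hϑ⟩).symm))
  rw [h2, Nat.factorization_mul (irr_degree_ne_zero β) (irr_degree_ne_zero ⟨ϑ, hϑ⟩),
    Finsupp.add_apply, Nat.factorization_eq_zero_of_not_dvd h3, add_zero]
  exact (Nat.factorization_le_iff_dvd (irr_degree_ne_zero β) A.index_ne_zero_of_finite).mpr h1 p

/-- The centre of a Sylow subgroup embeds into `Z(O_p(Q))` for a quotient `Q` of characteristic `p`
by a `p'`-group. -/
theorem factorization_index_le_of_isCharP [Finite G] [hp : Fact p.Prime] {π : G →* Q}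
    (hπ : Function.Surjective π) (hk : ¬ p ∣ Nat.card π.ker) (hQ : H22.IsCharP p Q)
    {P : Subgroup G} (hP : SylIn p P ⊤) :
    (Ce (pCore p Q)).index.factorization p ≤ (Subgroup.center P).index.factorization p := by
  have := Finite.of_surjective π hπ
  have h1 := SylIn.map hP π
  rw [Subgroup.map_top_of_surjective _ hπ] at h1
  have h2 : pCore p Q ≤ P.map π :=
    h1.normal_le H22.isPGroup_pCore le_top (Subgroup.normalizer_eq_top _).ge
  let f : Subgroup.center P →* Ce (pCore p Q) :=
    (π.comp (P.subtype.comp (Subgroup.center P).subtype)).codRestrict _ fun z x hx => by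
      obtain ⟨y, hy, rfl⟩ := h2 hx
      simpa [← map_mul] using
        congrArg (fun t : P => π t) (Subgroup.mem_center_iff.mp z.2 ⟨y, hy⟩)
  have hf : Function.Injective f := (injective_iff_map_eq_one _).mpr fun z hz => by
    have h3 : ((z : P) : G) ∈ π.ker := congrArg Subtype.val hz
    exact Subtype.ext (Subtype.ext (H33.eq_one_of_pElt_of_regular (pElt_of_le hP.pgp z.1.2)
      fun h => hk (h.trans (Subgroup.orderOf_dvd_natCard _ h3))))
  have h4 := (Nat.factorization_le_iff_dvd Nat.card_pos.ne' Nat.card_pos.ne').mpr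
    (Subgroup.card_dvd_of_injective f hf) p
  have key : ∀ {K : Type _} [Group K] [Finite K] (H : Subgroup K), (Nat.card K).factorization p =
      (Nat.card H).factorization p + H.index.factorization p := fun H => by
    rw [← H.card_mul_index, Nat.factorization_mul Nat.card_pos.ne' H.index_ne_zero_of_finite,
      Finsupp.add_apply]
  have h5 := key (Subgroup.center P)
  have h6 : (Nat.card Q).factorization p = (Nat.card (Ce (pCore p Q))).factorization p +
      (Ce (pCore p Q)).index.factorization p := by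
    rw [← (Ce (pCore p Q)).card_mul_index, Nat.factorization_mul Nat.card_pos.ne'
      Subgroup.index_ne_zero_of_finite, Finsupp.add_apply]
  have h7 := (Nat.factorization_le_iff_dvd Nat.card_pos.ne' Nat.card_pos.ne').mpr
    (Subgroup.card_dvd_of_surjective π hπ) p
  rw [hP.card_eq, Nat.Prime.factorization_pow hp.out, Finsupp.single_eq_same,
    Subgroup.card_top] at h5
  omega

variable [hMm : M.IsMaximal]

universe u

theorem fong_height_aux [hp : Fact p.Prime] (hM : IsPModular p M) (n : ℕ) :
    ∀ (G : Type u) [Group G] [Finite G], Nat.card G = n → IsPSolvable p G →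
      ∀ B, IsPBlock M B → ∀ P : Subgroup G, IsDefectGroup p M B P → ∀ χ ∈ B,
        blockHeight p B (χ : G → ℂ) ≤ (Subgroup.center P).index.factorization p := by
  induction n using Nat.strong_induction_on with
  | _ n IH =>
  intro G _ _ hn hG B hB P hP χ hχ
  classical
  have := Fintype.ofFinite G
  have := Fintype.ofFinite (pPrimeCore p G)
  have hN : ¬ p ∣ Nat.card (pPrimeCore p G) := H33.not_dvd_card_pPrimeCore hp.out
  let E := NEmb.ofNormal (pPrimeCore p G)
  obtain ⟨θ, hθ⟩ := exists_under E.ι χ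
  have hb := isPBlock_singleton hM hN θ
  have hc : Covers E.ι B {θ} := ⟨χ, hχ, θ, rfl, hθ⟩
  have hT := NEmb.stab_stabOf (E := E) hb
  by_cases hTop : E.stabOf {θ} = ⊤
  · have hi : E.Inv {θ} := fun g => hT.inv g (hTop ▸ Subgroup.mem_top g)
    have hinv : ∀ g : G, H6.conjChar (pPrimeCore p G) g θ = θ := fun g => funext fun n => by
      have := congrFun (congrArg Subtype.val (hi g θ rfl)) n
      rwa [NEmb.act_apply, NEmb.ofNormal_cj] at this
    have hQ := H22.IsPSolvable.isCharP_quotient hG
    have ho := isPBlock_overSet_of_isCharP hM hN hi (QuotientGroup.mk'_surjective (pPrimeCore p G))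
      (by rw [QuotientGroup.ker_mk']; exact (Subgroup.range_subtype _).symm) hQ
    have hS := sylIn_top_of_isDefectGroup hM hB
      (by rw [hc.eq_overSet hM hb hB ho, full_defect_overSet hM hN hi ho]) hP
    refine (Nat.sub_le _ _).trans ((factorization_degree_le_of_invariant hp.out _ hN θ.2
      (fun g n => congrFun (hinv g) n) (Ce (pCore p _)) (H22.isPGroup_pCore.to_le hQ)
      (fun a ha b hb => (ha b (hQ hb)).symm) χ hθ).trans ?_)
    exact factorization_index_le_of_isCharP (QuotientGroup.mk'_surjective _)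
      (by rwa [QuotientGroup.ker_mk']) hQ hS
  set T := E.stabOf {θ}
  have := Fintype.ofFinite T
  obtain ⟨B', hc', hi⟩ := hT.exists_indBlk hM hb hB hc
  obtain ⟨D, hD⟩ := exists_defectGroup hM hi.1
  obtain ⟨x, rfl⟩ := defectGroup_conj hM hB (hT.isDefectGroup_map hM hb hc' hi hD) hP
  obtain ⟨α, hα, hα'⟩ := hT.eq_indSet hM hb hc' hi ▸ hχ
  rw [hα', hT.blockHeight_eq hM hb hc' hi, ← index_center_congr
    ((D.equivMapOfInjective _ T.subtype_injective).trans
      (Subgroup.equivMapOfInjective _ _ (MulAut.conj x).injective))]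
  exact IH _ (by
    rw [← hn, ← T.card_mul_index]
    exact lt_mul_of_one_lt_right Nat.card_pos (Subgroup.one_lt_index_of_ne_top hTop)) T rfl
    (H22.IsPSolvable.subgroup hG T) B' hi.1 D hD α hα

end Cfsg.Agent.H34
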