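import Cfsg.Agent.H34.RealIBr
import Cfsg.Agent.H34.IndBlk
import Cfsg.Agent.H33.Kuls

/-! Real 2-blocks (Gow): a real 2-block has a real irreducible Brauer character; a strongly real
element of 2-defect zero gives a real character of defect zero if the Sylow 2-subgroups are
abelian. -/

set_option autoImplicit false

namespace Cfsg.Agent.H34

open Cfsg H32 H86
open scoped ComplexConjugate

variable {M : Ideal AlgInt} [hMm : M.IsMaximal] {G : Type*} [Group G] [Finite G] {p : ℕ}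

omit hMm [Finite G] in
theorem isConj_inv_inv {a b : G} : IsConj a⁻¹ b⁻¹ ↔ IsConj a b := by
  simp only [isConj_iff]
  refine exists_congr fun c => ?_
  rw [← conj_inv, inv_inj]

/-- A set of characters closed under complex conjugation. -/
def RealB (B : Set (IrrCharacter G)) : Prop := ∀ χ ∈ B, invIrr χ ∈ B

omit hMm in
theorem centralChar_invIrr (χ : IrrCharacter G) (g : G) :
    centralChar (invIrr χ : G → ℂ) g = centralChar (χ : G → ℂ) g⁻¹ := by
  have : Subgroup.centralizer ({g⁻¹} : Set G) = Subgroup.centralizer {g} := by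
    ext x
    simp only [Subgroup.mem_centralizer_singleton_iff]
    exact ⟨fun h => (Commute.inv_right_iff.1 h).eq, fun h => (Commute.inv_right_iff.2 h).eq⟩
  simp only [centralChar, invIrr_apply, this, _root_.inv_one]

omit hMm in
theorem RealB.blockCoeff_inv {B : Set (IrrCharacter G)} (h : RealB B) (g : G) :
    blockCoeff B g⁻¹ = blockCoeff B g := by
  classical
  rw [blockCoeff_eq_sum_ite, blockCoeff_eq_sum_ite]
  refine Fintype.sum_equiv ⟨invIrr, invIrr, invIrr_invIrr, invIrr_invIrr⟩ _ _ fun χ => ?_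
  have : invIrr χ ∈ B ↔ χ ∈ B := ⟨fun h' => invIrr_invIrr χ ▸ h _ h', h χ⟩
  simp only [Equiv.coe_fn_mk, this, invIrr_apply, _root_.inv_one]

theorem realB_of_mem {B : Set (IrrCharacter G)} (hB : IsPBlock M B) {χ : IrrCharacter G}
    (hχ : χ ∈ B) (h : invIrr χ ∈ B) : RealB B := fun ψ hψ =>
  mem_of_sameBlock hB h fun g => by
    rw [centralChar_invIrr, centralChar_invIrr]
    exact sameBlock_of_mem hB hχ hψ g⁻¹

theorem realB_of_indBlk {K : Type*} [Group K] [Finite K] {ι : K →* G} {b : Set (IrrCharacter K)}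
    {B : Set (IrrCharacter G)} (h : IndBlk M ι b B) (hb : RealB b) : RealB B := by
  have := Fintype.ofFinite K
  obtain ⟨ξ, hξ⟩ := isPBlock_nonempty h.1
  intro χ hχ
  refine mem_of_sameBlock h.2.1 hχ fun g => ?_
  have h1 := h.2.2 ξ hξ χ hχ g⁻¹
  have h2 := h.2.2 _ (hb ξ hξ) χ hχ g
  have e : icc ι (invIrr ξ : K → ℂ) g = icc ι (ξ : K → ℂ) g⁻¹ := by
    rw [icc_eq_sum, icc_eq_sum]
    refine Fintype.sum_equiv (Equiv.inv K) _ _ fun k => ?_
    have : IsConj g⁻¹ (ι k⁻¹) ↔ IsConj g (ι k) := by rw [map_inv]; exact isConj_inv_inv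
    rw [Equiv.inv_apply]
    simp only [invIrr_apply, _root_.inv_one, clInd]
    rw [propext this]
  rw [e] at h2
  rw [centralChar_invIrr]
  exact sub_mem_locMax_trans (M := M) (sub_mem_locMax_comm h2) h1

theorem two_mul_mem (hM : IsPModular 2 M) {z : ℂ} (hz : z ∈ locRing M) : z + z ∈ locMax M := by
  rw [← two_mul]
  exact mul_mem_locMax_right (by exact_mod_cast natCast_p_mem_locMax hM) hz

theorem exists_real_coeff (hM : IsPModular 2 M) {B : Set (IrrCharacter G)} (hB : IsPBlock M B)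
    (hr : RealB B) : ∃ y : G, IsConj y⁻¹ y ∧ blockCoeff B y ∉ locMax M := by
  classical
  have := Fintype.ofFinite G
  have := Fintype.ofFinite (ConjClasses G)
  by_contra! H
  obtain ⟨χ, hχ⟩ := isPBlock_nonempty hB
  have hcf : IsClassFunction G (blockCoeff B) := blockCoeff_conj B
  have h1 := om_blockCoeff_of_mem hχ
  rw [om_eq_sum_classes (irr_cf χ.2) hcf] at h1
  refine one_not_mem_locMax (M := M) (h1 ▸ sum_mem_of_involutive (locMax M).toAddSubgroup _ _
    (fun C => ConjClasses.mk (Quotient.out C)⁻¹) (fun C _ => ?_) (fun _ _ => Finset.mem_univ _)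
    (fun C _ => ?_) (fun C _ hC => ?_))
  · refine Eq.trans ?_ (Quotient.out_eq C)
    refine ConjClasses.mk_eq_mk_iff_isConj.2 (isConj_inv_inv.1 ?_)
    rw [inv_inv]
    exact isConj_out (Quotient.out C)⁻¹
  · have hc := isConj_out (Quotient.out C)⁻¹
    rw [blockCoeff_eq_of_isConj B hc, centralChar_eq_of_isConj (irr_cf χ.2) hc, hr.blockCoeff_inv,
      ← centralChar_invIrr, ← mul_add]
    refine mul_mem_locMax_left (blockCoeff_mem_locRing hB _) ?_
    have h2 : _ ∈ locMax M := sameBlock_of_mem hB (hr χ hχ) hχ (Quotient.out C)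
    have h3 := two_mul_mem hM (centralChar_mem_locRing χ.2 (Quotient.out C))
    convert add_mem h2 h3 using 1
    ring
  · refine mul_mem_locMax_right (H _ ?_) (centralChar_mem_locRing χ.2 _)
    exact ConjClasses.mk_eq_mk_iff_isConj.1 (hC.trans (Quotient.out_eq C).symm)

theorem blockCoeff_eq_sum_phi (hM : IsPModular p M) {B : Set (IrrCharacter G)} (hB : IsPBlock M B)
    {y : G} (hy : ¬ p ∣ orderOf y) :
    blockCoeff B y = ∑ i ∈ ibrOf M B, (pim i).coeff 1 * phi i y⁻¹ := by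
  classical
  have e : ∀ i : IBr M G, (pim i).coeff 1 = (Nat.card G : ℂ)⁻¹ * Phi i 1 := fun i => by
    rw [Phi, projC_one_apply, inv_mul_cancel_left₀ (H6.card_ne_zero_complex G)]
  have e' : ∑ i ∈ ibrOf M B, (pim i).coeff 1 * phi i y⁻¹ = ∑ i ∈ ibrOf M B, (Nat.card G : ℂ)⁻¹ *
      ∑ χ ∈ fs B, ((dec (χ : G → ℂ) i : ℂ) • (χ : G → ℂ)) 1 * phi i y⁻¹ :=
    Finset.sum_congr rfl fun i hi => by
      rw [e, Phi_eq_sum_fs (mem_ibrOf.1 hi), Finset.sum_apply, mul_assoc, Finset.sum_mul]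
  rw [blockCoeff_eq_sum, e', ← Finset.mul_sum, Finset.sum_comm]
  congr 1
  refine Finset.sum_congr (by ext χ; simp [mem_fs]) fun χ hχ => ?_
  rw [← H5.isIrr_apply_inv χ.2, ← reg_of_regular (p := p) (χ : G → ℂ) (g := y⁻¹)
    (by rwa [orderOf_inv]), reg_irr_eq_sum_ibrOf hM hB (mem_fs.1 hχ), Finset.sum_apply,
    Finset.mul_sum]
  refine Finset.sum_congr rfl fun i _ => ?_
  simp only [Pi.smul_apply, smul_eq_mul]
  ring

/-- **Gow.** A real 2-block has a real irreducible Brauer character. -/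
theorem exists_real_ibr (hM : IsPModular 2 M) {B : Set (IrrCharacter G)} (hB : IsPBlock M B)
    (hr : RealB B) : ∃ i ∈ ibrOf M B, ibrDual hM i = i := by
  have := Fact.mk Nat.prime_two
  obtain ⟨y, hy, h⟩ := exists_real_coeff hM hB hr
  by_contra! H
  apply h
  rw [blockCoeff_eq_sum_phi hM hB (regular_of_blockCoeff_not_mem hM hB h)]
  refine sum_mem_of_involutive (locMax M).toAddSubgroup _ _ (ibrDual hM)
    (fun i _ => ibrDual_ibrDual hM i) (fun i hi => ?_) (fun i _ => ?_)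
    (fun i hi e => (H i hi e).elim)
  · obtain ⟨χ, hχ, hd⟩ := exists_mem_blk_dec i
    rw [mem_ibrOf] at hi ⊢
    exact blk_eq_of_dec hB (hr χ (hi ▸ hχ)) (by rwa [dec_invIrr])
  · have e : ∀ i : IBr M G, (pim i).coeff 1 = (Nat.card G : ℂ)⁻¹ * Phi i 1 := fun i => by
      rw [Phi, projC_one_apply, inv_mul_cancel_left₀ (H6.card_ne_zero_complex G)]
    have e1 : (pim (ibrDual hM i)).coeff 1 = (pim i).coeff 1 := by
      rw [e, e, Phi_ibrDual]
      simp only [_root_.inv_one]
    have e2 : phi (ibrDual hM i) y⁻¹ = phi i y⁻¹ := by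
      rw [phi_ibrDual]
      simp only [inv_inv]
      exact (H5.isClassFunction_apply_of_isConj (isClassFunction_phi i) hy).symm
    rw [e1, e2]
    exact two_mul_mem hM (mul_mem (mem_RG.1 (pim_mem_RG i) 1) (phi_mem_locRing hM i _))

/-- Every 2-subgroup is commutative. -/
def Ab2 (G : Type*) [Group G] : Prop :=
  ∀ Q : Subgroup G, IsPGroup 2 Q → ∀ a ∈ Q, ∀ b ∈ Q, a * b = b * a

omit hMm [Finite G] in
theorem Ab2.comap {K : Type*} [Group K] (h : Ab2 G) {f : K →* G} (hf : Function.Injective f) :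
    Ab2 K := fun Q hQ a ha b hb => hf (by
  rw [map_mul, map_mul]
  exact h _ (hQ.map f) _ (Subgroup.mem_map_of_mem f ha) _ (Subgroup.mem_map_of_mem f hb))

omit hMm [Finite G] in
theorem Ab2.of_surjective {K : Type*} [Group K] (h : Ab2 G) {f : G →* K}
    (hf : Function.Surjective f) (hk : IsPGroup 2 f.ker) : Ab2 K := fun Q hQ a ha b hb => by
  obtain ⟨a, rfl⟩ := hf a
  obtain ⟨b, rfl⟩ := hf b
  rw [← map_mul, ← map_mul, h _ (hQ.comap_of_ker_isPGroup f hk) a ha b hb]

omit hMm in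
theorem ab2_of_sylow (P : Sylow 2 G) (hP : IsMulCommutative P) : Ab2 G := fun Q hQ a ha b hb => by
  have := Fact.mk Nat.prime_two
  obtain ⟨R, hR⟩ := hQ.exists_le_sylow
  obtain ⟨g, rfl⟩ := MulAction.exists_smul_eq G P R
  obtain ⟨a', ha', rfl⟩ := Subgroup.mem_smul_pointwise_iff_exists _ _ _ |>.1 (hR ha)
  obtain ⟨b', hb', rfl⟩ := Subgroup.mem_smul_pointwise_iff_exists _ _ _ |>.1 (hR hb)
  rw [← smul_mul', ← smul_mul', show a' * b' = b' * a' from congrArg Subtype.val
    (hP.is_comm.comm (⟨a', ha'⟩ : (P : Subgroup G)) ⟨b', hb'⟩)]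

omit hMm in
theorem Ab2.commute_of_inv (h : Ab2 G) {a z : G} (ha : ∃ k, orderOf a = 2 ^ k)
    (hz : ∃ k, orderOf z = 2 ^ k) (hza : z * a * z⁻¹ = a⁻¹) : a * z = z * a := by
  have := Fact.mk Nat.prime_two
  obtain ⟨k, hk⟩ := ha
  obtain ⟨l, hl⟩ := hz
  have h1 : IsPGroup 2 (Subgroup.zpowers a) := IsPGroup.of_card (by rw [Nat.card_zpowers, hk])
  have h2 : IsPGroup 2 (Subgroup.zpowers z) := IsPGroup.of_card (by rw [Nat.card_zpowers, hl])
  refine h _ (h1.to_sup_of_normal_left' h2 ?_) _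
    (Subgroup.mem_sup_left (Subgroup.mem_zpowers a)) _
    (Subgroup.mem_sup_right (Subgroup.mem_zpowers z))
  rw [Subgroup.zpowers_le]
  refine Subgroup.mem_normalizer_fintype ?_
  rintro _ ⟨n, rfl⟩
  exact ⟨-n, by simp only [← conj_zpow, hza, inv_zpow', ]⟩

end Cfsg.Agent.H34
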