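import Cfsg.Agent.H34.RealBlk
import Cfsg.Agent.H88.Wada

/-! A real element of 2-defect zero gives a real character of 2-defect zero if the Sylow
2-subgroups are abelian (Gow--Murray). -/

set_option autoImplicit false

namespace Cfsg.Agent.H34

open Cfsg H32 H86 H33
open scoped ComplexConjugate

variable {M : Ideal AlgInt} [hMm : M.IsMaximal] {G : Type*} [Group G] [Finite G]

theorem sum_sub_sum_fixed (hM : IsPModular 2 M) {α : Type*} [DecidableEq α] (s : Finset α)
    (f : α → ℂ) (π : α → α) (hπ : ∀ a ∈ s, π (π a) = a) (hs : ∀ a ∈ s, π a ∈ s)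
    (h1 : ∀ a ∈ s, f (π a) = f a) (h2 : ∀ a ∈ s, f a ∈ locRing M) :
    ∑ a ∈ s, f a - ∑ a ∈ s with π a = a, f a ∈ locMax M := by
  rw [Finset.sum_filter, ← Finset.sum_sub_distrib]
  refine sum_mem_of_involutive (locMax M).toAddSubgroup _ _ π hπ hs (fun a ha => ?_)
    (fun a _ e => by simp [e])
  by_cases e : π a = a
  · simp [e]
  · rw [if_neg e, if_neg (fun e' => e (e'.symm.trans (hπ a ha))), h1 a ha, sub_zero]
    exact two_mul_mem hM (h2 a ha)

omit hMm [Finite G] in
theorem pInd_conj' {p : ℕ} (a g : G) : pInd p (g * a * g⁻¹) = pInd p a :=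
  pInd_isClassFunction a g

omit [Finite G] in
theorem pInd_mem (p : ℕ) (a : G) : pInd p a ∈ locRing M := by
  unfold pInd
  split_ifs
  · exact one_mem _
  · exact zero_mem _

theorem pairs_not_mem [Fintype G] (hM : IsPModular 2 M) (h : Ab2 G) {x t : G}
    (hx : ¬ 2 ∣ Nat.card (Subgroup.centralizer ({x} : Set G))) (ht : t * t = 1)
    (htx : t * x * t⁻¹ = x⁻¹) : ∑ a, pInd 2 a * pInd 2 (a⁻¹ * x) ∉ locMax M := by
  classical
  have hodd : ∀ c : G, c * x = x * c → Odd (orderOf c) := fun c hc => by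
    have := Subgroup.orderOf_dvd_natCard (Subgroup.centralizer ({x} : Set G))
      (Subgroup.mem_centralizer_singleton_iff.2 hc)
    exact Nat.odd_iff.2 (Nat.two_dvd_ne_zero.1 fun h2 => hx (h2.trans this))
  have hti : t⁻¹ = t := inv_eq_of_mul_eq_one_right ht
  obtain ⟨n, hn⟩ := hodd x rfl
  obtain ⟨y, hy, hty⟩ : ∃ y : G, y * y = x ∧ t * y * t⁻¹ = y⁻¹ :=
    ⟨x ^ (n + 1), by rw [← pow_add, show n + 1 + (n + 1) = orderOf x + 1 by omega, pow_succ,
      pow_orderOf_eq_one, one_mul], by rw [← conj_pow, htx, inv_pow]⟩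
  have hty' : t * y = y⁻¹ * t := by rw [← hty]; group
  have htx' : t * x = x⁻¹ * t := by rw [← htx]; group
  have hxt : x * t * (x * t) = 1 := by
    rw [show x * t * (x * t) = x * (t * x) * t by group, htx']; simp [ht]
  set z := y * t with hz
  have hzz : z * z = 1 := by
    rw [show z * z = y * (t * y) * t by simp only [hz]; group, hty']; simp [ht]
  have hzi : z⁻¹ = z := inv_eq_of_mul_eq_one_right hzz
  have hzt : z * t * z⁻¹ = x * t := by
    rw [hzi, hz, mul_assoc y t t, ht, mul_one, ← mul_assoc, hy]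
  have hzxt : z * (x * t) * z⁻¹ = t := by
    rw [← hzt, show z * (z * t * z⁻¹) * z⁻¹ = (z * z) * t * (z * z)⁻¹ by group, hzz]; simp
  have two : ∀ c : G, c * c = 1 → ∃ k, orderOf c = 2 ^ k := fun c hc => by
    have : orderOf c ∣ 2 ^ 1 := orderOf_dvd_of_pow_eq_one (by rw [pow_one, pow_two, hc])
    obtain ⟨k, -, hk⟩ := (Nat.dvd_prime_pow Nat.prime_two).1 this
    exact ⟨k, hk⟩
  have hfix : ∀ a : G, x * t * a * t = a ↔ a * t * a⁻¹ = x * t := fun a => by
    constructor
    · intro e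
      rw [mul_inv_eq_iff_eq_mul]
      conv_lhs => rw [← e, mul_assoc, ht, mul_one]
    · intro e
      rw [← e, inv_mul_cancel_right, mul_assoc, ht, mul_one]
  have s1 := sum_sub_sum_fixed hM Finset.univ (fun a => pInd 2 a * pInd 2 (a⁻¹ * x))
    (fun a => x * t * a * t) (fun a _ => by
      rw [show x * t * (x * t * a * t) * t = (x * t * (x * t)) * a * (t * t) by group, hxt, ht]
      simp) (fun _ _ => Finset.mem_univ _) (fun a _ => by
      have e1 : x * t * a * t = t * (a⁻¹ * x)⁻¹ * t⁻¹ := by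
        rw [hti, mul_inv_rev, inv_inv, ← mul_assoc t, ← inv_inv (t * x⁻¹), mul_inv_rev, inv_inv,
          hti, inv_eq_of_mul_eq_one_right hxt]
      have e2 : (x * t * a * t)⁻¹ * x = t * a⁻¹ * t⁻¹ := by
        simp only [mul_inv_rev, hti, mul_assoc, inv_mul_cancel, mul_one]
      rw [e2, e1, pInd_conj', pInd_conj', pInd_inv, pInd_inv, mul_comm])
    (fun a _ => mul_mem (pInd_mem _ _) (pInd_mem _ _))
  have e3 : ∑ a with x * t * a * t = a, pInd 2 a * pInd 2 (a⁻¹ * x) =
      ∑ a with x * t * a * t = a, pInd 2 a := Finset.sum_congr rfl fun a ha => by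
    have e := (hfix a).1 (Finset.mem_filter.1 ha).2
    have : a⁻¹ * x = t * a⁻¹ * t⁻¹ := by
      rw [eq_mul_inv_iff_mul_eq, mul_assoc, ← e]; group
    rw [this, pInd_conj', pInd_inv]
    unfold pInd
    split_ifs <;> simp
  have s2 := sum_sub_sum_fixed hM (Finset.univ.filter fun a => x * t * a * t = a) (pInd 2)
    (fun a => z * a⁻¹ * z⁻¹) (fun a _ => by
      rw [show z * (z * a⁻¹ * z⁻¹)⁻¹ * z⁻¹ = (z * z) * a * (z * z)⁻¹ by group, hzz]; simp)
    (fun a ha => by
      have e := (hfix a).1 (Finset.mem_filter.1 ha).2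
      refine Finset.mem_filter.2 ⟨Finset.mem_univ _, (hfix _).2 ?_⟩
      have e' : z⁻¹ * t * z = x * t := by rw [← hzt, hzi]
      rw [show z * a⁻¹ * z⁻¹ * t * (z * a⁻¹ * z⁻¹)⁻¹ = z * a⁻¹ * (z⁻¹ * t * z) * a * z⁻¹ by group,
        e', ← e, show z * a⁻¹ * (a * t * a⁻¹) * a * z⁻¹ = z * t * z⁻¹ by group, hzt, e])
    (fun a _ => by rw [pInd_conj', pInd_inv]) (fun a _ => pInd_mem _ _)
  have e4 : ∑ a ∈ (Finset.univ.filter fun a => x * t * a * t = a) with z * a⁻¹ * z⁻¹ = a,
      pInd 2 a = 1 := by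
    rw [Finset.sum_eq_single z (fun a ha hne => pInd_of_not_pElt fun hp => hne ?_)
      (fun hz' => (hz' ?_).elim), pInd_of_pElt (two z hzz)]
    · obtain ⟨ha1, ha2⟩ := Finset.mem_filter.1 ha
      have e := (hfix a).1 (Finset.mem_filter.1 ha1).2
      have ha3 : z * a * z⁻¹ = a⁻¹ := by rw [← inv_inj, conj_inv, inv_inv, ha2]
      have hc := h.commute_of_inv hp (two z hzz) ha3
      have haa : a * a = 1 := by
        rw [← hc, mul_inv_cancel_right] at ha3
        exact mul_eq_one_iff_eq_inv.2 ha3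
      have h1 : a * z * t * (a * z)⁻¹ = t := by
        rw [show a * z * t * (a * z)⁻¹ = a * (z * t * z⁻¹) * a⁻¹ by group, hzt, ← e,
          show a * (a * t * a⁻¹) * a⁻¹ = (a * a) * t * (a * a)⁻¹ by group, haa]; simp
      have h2 : a * z * (x * t) * (a * z)⁻¹ = x * t := by
        rw [show a * z * (x * t) * (a * z)⁻¹ = a * (z * (x * t) * z⁻¹) * a⁻¹ by group, hzxt, e]
      have h3 : a * z * x = x * (a * z) := by
        rw [show a * z * (x * t) * (a * z)⁻¹ = (a * z * x * (a * z)⁻¹) * (a * z * t * (a * z)⁻¹)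
          by group, h1, mul_left_inj] at h2
        exact mul_inv_eq_iff_eq_mul.1 h2
      have h4 : a * z * (a * z) = 1 := by
        rw [show a * z * (a * z) = a * (z * a) * z by group, ← hc,
          show a * (a * z) * z = (a * a) * (z * z) by group, haa, hzz, one_mul]
      obtain ⟨k, hk⟩ := two _ h4
      have h5 := hodd _ h3
      rw [hk] at h5
      have : k = 0 := by
        by_contra hk0
        exact (Nat.not_even_iff_odd.2 h5) ((Nat.even_pow' hk0).2 even_two)
      rw [this, pow_zero, orderOf_eq_one_iff] at hk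
      rw [eq_inv_of_mul_eq_one_left hk, hzi]
    · refine Finset.mem_filter.2 ⟨Finset.mem_filter.2 ⟨Finset.mem_univ _, (hfix _).2 hzt⟩, ?_⟩
      rw [mul_inv_cancel, one_mul, hzi]
  rw [e3] at s1
  rw [e4] at s2
  exact not_mem_locMax_of_sub_one_mem (sub_mem_locMax_trans s1 s2)

theorem exists_real_dz (hM : IsPModular 2 M) (h : Ab2 G) {x t : G}
    (hx : ¬ 2 ∣ Nat.card (Subgroup.centralizer ({x} : Set G))) (ht : t * t = 1)
    (htx : t * x * t⁻¹ = x⁻¹) : ∃ θ : IrrCharacter G, invIrr θ = θ ∧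
      (Nat.card G).factorization 2 ≤ (charDegree (θ : G → ℂ)).factorization 2 := by
  classical
  have := Fintype.ofFinite G
  by_contra! H
  apply pairs_not_mem hM h hx ht htx
  have hP : ofFun (pInd 2 : G → ℂ) ∈ Zc ℂ G := ofFun_mem_Zc pInd_conj'
  have e1 := coeff_eq_sum_omega (mul_mem hP hP) x
  simp only [coeff_mul_sum, coeff_ofFun] at e1
  let av : IrrCharacter G → ℂ := fun χ => (Nat.card G : ℂ)⁻¹ * ∑ g, pInd 2 g * (χ : G → ℂ) g
  have hav : ∀ χ, av χ ∈ locRing M := fun χ => avg_pInd_mul_mem hM (irr_isCharacter χ)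
  have hG := H6.card_ne_zero_complex G
  have e2 : ∀ χ : IrrCharacter G, (Nat.card G : ℂ)⁻¹ *
      (omega (χ : G → ℂ) (ofFun (pInd 2) * ofFun (pInd 2)) * ((χ : G → ℂ) 1 * conj ((χ : G → ℂ) x))) =
      av χ * av χ * conj ((χ : G → ℂ) x) * (Nat.card G / (χ : G → ℂ) 1) := fun χ => by
    have h1 : (χ : G → ℂ) 1 ≠ 0 := H5.degree_ne_zero χ.2
    rw [omega_mul χ.2 hP, omega_apply, ev_eq_sum]
    simp only [coeff_ofFun, av]
    field_simp
  rw [e1, Finset.mul_sum, Finset.sum_congr rfl fun χ _ => e2 χ]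
  have hq : ∀ χ : IrrCharacter G, ∃ r : ℕ, (Nat.card G / (χ : G → ℂ) 1 : ℂ) = r ∧
      Nat.card G = charDegree (χ : G → ℂ) * r := fun χ => by
    obtain ⟨r, hr⟩ := H88.charDegree_dvd_card χ.2
    refine ⟨r, ?_, hr⟩
    rw [div_eq_iff (H5.degree_ne_zero χ.2), hr, ← irr_degree_cast]
    push_cast
    ring
  have hm : ∀ χ : IrrCharacter G, av χ * av χ * conj ((χ : G → ℂ) x) ∈ locRing M := fun χ =>
    mul_mem (mul_mem (hav χ) (hav χ))
      (mem_locRing_of_isIntegral (H88.isIntegral_conj_apply (irr_isCharacter χ) x))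
  refine sum_mem_of_involutive (locMax M).toAddSubgroup _ _ invIrr (fun χ _ => invIrr_invIrr χ)
    (fun _ _ => Finset.mem_univ _) (fun χ _ => ?_) (fun χ _ e => ?_)
  · have a1 : av (invIrr χ) = av χ := by
      simp only [av]
      congr 1
      exact Fintype.sum_equiv (Equiv.inv G) _ _ fun g => by
        rw [Equiv.inv_apply, pInd_inv, invIrr_apply]
    have a2 : (invIrr χ : G → ℂ) x = (χ : G → ℂ) x := by
      rw [invIrr_apply, ← htx, irr_cf χ.2]
    rw [a1, a2, invIrr_apply, _root_.inv_one]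
    obtain ⟨r, hr, -⟩ := hq χ
    exact two_mul_mem hM (mul_mem (hm χ) (hr ▸ natCast_mem _ r))
  · obtain ⟨r, hr, hr'⟩ := hq χ
    refine mul_mem_locMax_left (hm χ) (hr ▸ (natCast_mem_locMax_iff hM).2 ?_)
    by_contra h2
    have := H χ e
    have h0 : Nat.card G ≠ 0 := Nat.card_pos.ne'
    rw [hr', Nat.factorization_mul (left_ne_zero_of_mul (hr' ▸ h0)) (right_ne_zero_of_mul (hr' ▸ h0)),
      Finsupp.add_apply, Nat.factorization_eq_zero_of_not_dvd h2] at this
    omega

end Cfsg.Agent.H34
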