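import Cfsg.Agent.H34.RealDz
import Cfsg.Agent.H34.CenBlock
import Cfsg.Agent.H34.TrivIBr
import Cfsg.Agent.H33.Third
import Cfsg.Agent.S4726

/-! Real 2-blocks with prescribed defect group for abelian Sylow 2-subgroups. -/

set_option autoImplicit false

namespace Cfsg.Agent.H34

open Cfsg H32 H86 H33 H87

variable {M : Ideal AlgInt} [hMm : M.IsMaximal] {G : Type*} [Group G] [Finite G]

omit hMm in
theorem not_dvd_card_Cg_quot {p : ℕ} [hp : Fact p.Prime] {D : Subgroup G} [D.Normal]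
    (hc : Ce D = ⊤) {x : G} (hx : ¬ p ∣ orderOf x) (hD : SylIn p D (Cg x)) :
    ¬ p ∣ Nat.card (Cg (QuotientGroup.mk' D x)) := by
  intro h
  obtain ⟨⟨c, hc1⟩, hc2⟩ := exists_prime_orderOf_dvd_card' p h
  rw [← Subgroup.orderOf_coe] at hc2
  have hk : IsPGroup p (QuotientGroup.mk' D).ker := by rw [QuotientGroup.ker_mk']; exact hD.pgp
  have h1 : IsPGroup p (Subgroup.zpowers c) :=
    IsPGroup.of_card (n := 1) (by rw [Nat.card_zpowers, pow_one]; exact hc2)
  have h2 := hD.max ((Subgroup.zpowers c).comap (QuotientGroup.mk' D))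
    (fun d hd => by
      rw [Subgroup.mem_comap, QuotientGroup.mk'_apply, (QuotientGroup.eq_one_iff d).2 hd]
      exact one_mem _)
    (fun g hg => by
      have h3 : QuotientGroup.mk' D g ∈ Cg (QuotientGroup.mk' D x) :=
        (Subgroup.zpowers_le.2 hc1) hg
      rw [Subgroup.mem_centralizer_singleton_iff] at h3 ⊢
      have h4 : x⁻¹ * (g * x * g⁻¹) ∈ D := by
        rw [← QuotientGroup.eq_one_iff, ← QuotientGroup.mk'_apply]
        simp only [map_mul, map_inv, h3]
        group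
      have h5 : Commute x (x⁻¹ * (g * x * g⁻¹)) :=
        (mem_Ce.1 (hc ▸ Subgroup.mem_top x : x ∈ Ce D) _ h4).symm
      have h6 : ¬ p ∣ orderOf (x⁻¹ * (g * x * g⁻¹)) :=
        H33.regular_mul hp.out (by
          have h7 : Commute x⁻¹ (x * (x⁻¹ * (g * x * g⁻¹))) :=
            (Commute.refl x).inv_left.mul_right h5.inv_left
          simpa using h7) (by rwa [orderOf_inv]) (by rwa [H6.orderOf_conj_eq])
      obtain ⟨k, hk'⟩ := IsPGroup.iff_orderOf.mp hD.pgp ⟨_, h4⟩
      rw [← Subgroup.orderOf_coe] at hk'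
      have h8 := inv_mul_eq_one.mp (H33.eq_one_of_pElt_of_regular ⟨k, hk'⟩ h6)
      exact mul_inv_eq_iff_eq_mul.1 h8.symm)
    (h1.comap_of_ker_isPGroup _ hk)
  obtain ⟨g, rfl⟩ := QuotientGroup.mk'_surjective D c
  have h3 : g ∈ D := h2 ▸ Subgroup.mem_comap.2 (Subgroup.mem_zpowers _)
  rw [Subgroup.coe_mk, QuotientGroup.mk'_apply, (QuotientGroup.eq_one_iff g).2 h3,
    orderOf_one] at hc2
  exact hp.out.one_lt.ne hc2

theorem exists_realB_central (hM : IsPModular 2 M) (h : Ab2 G) {D : Subgroup G}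
    (hc : Ce D = ⊤) {x t : G} (hx : ¬ 2 ∣ orderOf x) (hD : SylIn 2 D (Cg x)) (ht : t * t = 1)
    (htx : t * x * t⁻¹ = x⁻¹) :
    ∃ b : Set (IrrCharacter G), IsPBlock M b ∧ RealB b ∧ IsDefectGroup 2 M b D := by
  have := Fact.mk Nat.prime_two
  have htop : D ⊔ Ce D = ⊤ := by rw [hc, sup_top_eq]
  have := normal_of_sup_Ce htop
  have hπ := QuotientGroup.mk'_surjective D
  obtain ⟨θ, h1, h2⟩ := exists_real_dz hM (h.of_surjective hπ
    (by rw [QuotientGroup.ker_mk']; exact hD.pgp)) (not_dvd_card_Cg_quot hc hx hD)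
    (t := QuotientGroup.mk' D t) (by rw [← map_mul, ht, map_one])
    (by rw [← map_inv, ← map_mul, ← map_mul, htx, map_inv])
  have hcan : Canon 2 D (infl hπ θ) := ⟨htop, hD.pgp, by rw [charDegree_infl]; exact h2,
    fun u hu => by
      rw [infl_apply, infl_one, QuotientGroup.mk'_apply, (QuotientGroup.eq_one_iff u).2 hu]⟩
  have hb := isPBlock_blockOf (M := M) (infl hπ θ)
  refine ⟨_, hb, realB_of_mem hb (mem_blockOf_self _) ?_,
    isDefectGroup_of_normal_of_card hM hb this ?_⟩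
  · have : invIrr (infl hπ θ) = infl hπ (invIrr θ) :=
      Subtype.ext (funext fun g => by rw [invIrr_apply, infl_apply, infl_apply, map_inv]; rfl)
    rw [this, h1]
    exact mem_blockOf_self _
  · obtain ⟨k, hk⟩ := IsPGroup.iff_card.1 hD.pgp
    have e := blockDefect_add_minExp (p := 2) (IsPBlock.nonempty hb)
    rw [hcan.minExp_eq hM, charDegree_infl, le_antisymm (factorization_degree_le θ) h2,
      ← D.card_mul_index, Nat.factorization_mul Nat.card_pos.ne' D.index_ne_zero_of_finite,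
      Finsupp.add_apply, hk, Nat.prime_two.factorization_pow, Finsupp.single_eq_same] at e
    rw [hk]
    congr 1
    exact (Nat.add_right_cancel e).symm

/-- **Gow.** -/
theorem exists_realB (hM : IsPModular 2 M) (h : Ab2 G) {D : Subgroup G} {x t : G}
    (hx : ¬ 2 ∣ orderOf x) (hD : SylIn 2 D (Cg x)) (htD : t ∈ Ce D) (ht : t * t = 1)
    (htx : t * x * t⁻¹ = x⁻¹) :
    ∃ B : Set (IrrCharacter G), IsPBlock M B ∧ RealB B ∧ IsDefectGroup 2 M B D := by
  have := Fact.mk Nat.prime_two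
  have hDC : D ≤ Ce D := fun a ha => mem_Ce.2 fun b hb => h D hD.pgp b hb a ha
  have hxD : x ∈ Ce D := le_Cg_iff.1 hD.le
  have hmap : (D.subgroupOf (Ce D)).map (Ce D).subtype = D := Subgroup.map_subgroupOf_eq_of_le hDC
  obtain ⟨b, hb, hr, hbD⟩ := exists_realB_central hM (h.comap (Ce D).subtype_injective)
    (D := D.subgroupOf (Ce D)) (x := ⟨x, hxD⟩) (t := ⟨t, htD⟩)
    (eq_top_iff.2 fun c _ => mem_Ce.2 fun d hd => Subtype.ext (mem_Ce.1 c.2 _ hd))
    (by rwa [← Subgroup.orderOf_coe])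
    ⟨fun d hd => Subgroup.mem_centralizer_singleton_iff.2
        (Subtype.ext (Subgroup.mem_centralizer_singleton_iff.1 (hD.le hd))),
      hD.pgp.comap_subtype, fun R h1 h2 h3 => by
        have := hD.max (R.map (Ce D).subtype) (hmap.ge.trans (Subgroup.map_mono h1))
          ((Subgroup.map_mono h2).trans (map_Cg_le _ _)) (h3.map _)
        exact Subgroup.map_injective (Ce D).subtype_injective (this.trans hmap.symm)⟩
    (Subtype.ext ht) (Subtype.ext htx)
  obtain ⟨B, hB⟩ := exists_indBlk hM (Ce D).subtype_injective hD.pgp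
    (by rwa [Subgroup.range_subtype]) (by rw [Subgroup.range_subtype])
    (by rw [Subgroup.range_subtype]; exact Ce_le_No D) hb
  refine ⟨B, hB.2.1, realB_of_indBlk hB hr, ?_⟩
  obtain ⟨E, hE⟩ := exists_defectGroup hM hB.2.1
  have := ((S4726.result 2 M hM (Ce D) b hb _ hbD (by rw [hmap])).2 B (indBlk_subtype.1 hB)).2 E hE
    ⟨⟨fun a b => Subtype.ext (h E (IsPGroup.of_card (card_defectGroup hM hB.2.1 hE)) _ a.2 _ b.2)⟩⟩
  rwa [hmap] at this

/-- The principal block has a real irreducible Brauer character. -/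
theorem exists_real_ibr_principal {p : ℕ} (hM : IsPModular p M) :
    ∃ i : IBr M G, i.blk = principalBlock M G ∧ ibrDual hM i = i := by
  obtain ⟨i, h1, h2⟩ := exists_triv_ibr (G := G) hM
  refine ⟨i, blk_eq_of_dec isPBlock_principalBlock one_mem_principalBlock
    (by rw [h1, if_pos rfl]; exact one_ne_zero), phi_injective ?_⟩
  rw [phi_ibrDual, h2]
  funext g
  simp only [pRegularPart, IsPRegular, orderOf_inv]
  congr

end Cfsg.Agent.H34
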